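import Cfsg.Agent.Helper28.J2UO.OrbData

set_option autoImplicit false

namespace Cfsg.Agent.Helper28.J2UO

theorem orb2_0 : Cfsg.Agent.Helper28.ptChunk (Cfsg.Agent.Helper28.orbPt Cfsg.Agent.Helper28.J2U.T 100 Cfsg.Agent.Helper28.J2U.subL 63 ov2 op2 otp2 otw2) 63 256 0 = true := by decide +kernel

end Cfsg.Agent.Helper28.J2UO
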