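import Cfsg.Agent.Helper28.TCO
import Cfsg.Agent.Helper28.J2U.Cert
import Cfsg.Agent.Helper28.J2UO.Orb1_0
import Cfsg.Agent.Helper28.J2UO.Orb2_0

set_option autoImplicit false

namespace Cfsg.Agent.Helper28.J2UO

theorem orb1_all : ∀ t, t < 36 → Cfsg.Agent.Helper28.orbPt Cfsg.Agent.Helper28.J2U.T 100 Cfsg.Agent.Helper28.J2U.subL 36 ov1 op1 otp1 otw1 t = true :=
  Cfsg.Agent.Helper28.pts_of_chunks _ 36 256 1 (by decide) (by decide)
    (Cfsg.Agent.Helper28.allLt_succ _ 0 (Cfsg.Agent.Helper28.allLt_zero _) orb1_0)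

theorem ov1_lt : ov1 0 < 100 := by decide +kernel

theorem orb2_all : ∀ t, t < 63 → Cfsg.Agent.Helper28.orbPt Cfsg.Agent.Helper28.J2U.T 100 Cfsg.Agent.Helper28.J2U.subL 63 ov2 op2 otp2 otw2 t = true :=
  Cfsg.Agent.Helper28.pts_of_chunks _ 63 256 1 (by decide) (by decide)
    (Cfsg.Agent.Helper28.allLt_succ _ 0 (Cfsg.Agent.Helper28.allLt_zero _) orb2_0)

theorem ov2_lt : ov2 0 < 100 := by decide +kernel

end Cfsg.Agent.Helper28.J2UO
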