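import Cfsg.Agent.Helper28.TCO
import Cfsg.Agent.Helper28.J2U.Data

/-! Orbit data for the certificate Cfsg.Agent.Helper28.J2U (generated). -/

set_option autoImplicit false

namespace Cfsg.Agent.Helper28.J2UO

noncomputable def ovcol1 : List ℕ := [0x6155ccb778ef467b3472d5e5de066b022e2993e108462e9541e1cc03,
0x71624a9]

noncomputable def opcol1 : List ℕ := [0x12400000000000006540000c0000804400000000000,
0xb913600ea30000780000001f2600a00000100000000000e00000,
0x6400000000220000f0400140001400b0b38010800060680002400e,
0x3430000]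

noncomputable def otcol1 : List ℕ := [0x22043c8710d3180308590a114424c418720e01c8300620a214c210400860c81883204208c090100260080000,
0x4047c8c913]

/-- the orbit list -/
noncomputable def ov1 : ℕ → ℕ := fun t => Cfsg.Agent.Helper28.bent 5 31 7 127 ovcol1 t

/-- position in the orbit list -/
noncomputable def op1 : ℕ → ℕ := fun i => Cfsg.Agent.Helper28.bent 5 31 7 127 opcol1 i

/-- orbit tree: parent position -/
noncomputable def otp1 : ℕ → ℕ := fun t => Nat.land (Cfsg.Agent.Helper28.bent 5 31 11 2047 otcol1 t) 127

/-- orbit tree: word index -/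
noncomputable def otw1 : ℕ → ℕ := fun t => Nat.shiftRight (Cfsg.Agent.Helper28.bent 5 31 11 2047 otcol1 t) 7

noncomputable def ovcol2 : List ℕ := [0x9d5e1c83ac5bbe6d4ee0d4b653440a8a08a2267032131cd02ac40201,
0x129061569cad166fc99b196925d3e86dae7478e2854d2812297cb2c]

noncomputable def opcol2 : List ℕ := [0x5ea8da968145000085ca36a905820000a33003038000007810010000,
0x6c6000000ac000325c0266e20d0000b0020769c02874449b1003973d,
0x44018155ac89003c0c0002c01c25007c00000f801c0c000103a00680,
0x1e09]

noncomputable def otcol2 : List ℕ := [0x24240c798e21c0388688d31862cc510a0144244418710e418c290500a40c419820046048088130040000000,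
0x6b8161ab2520a4d41a724e698d2024246684d012004047c4f91e23866c8d81b2344544a91402864c89912]

/-- the orbit list -/
noncomputable def ov2 : ℕ → ℕ := fun t => Cfsg.Agent.Helper28.bent 5 31 7 127 ovcol2 t

/-- position in the orbit list -/
noncomputable def op2 : ℕ → ℕ := fun i => Cfsg.Agent.Helper28.bent 5 31 7 127 opcol2 i

/-- orbit tree: parent position -/
noncomputable def otp2 : ℕ → ℕ := fun t => Nat.land (Cfsg.Agent.Helper28.bent 5 31 11 2047 otcol2 t) 127

/-- orbit tree: word index -/
noncomputable def otw2 : ℕ → ℕ := fun t => Nat.shiftRight (Cfsg.Agent.Helper28.bent 5 31 11 2047 otcol2 t) 7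

end Cfsg.Agent.Helper28.J2UO
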